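import Mathlib

/-!
# S3530: combinatorics of the classes for two components (helper291)
-/

set_option autoImplicit false

namespace Cfsg.Agent.H291.S3530

theorem exists_rest : ∀ p w : Fin 5, p ≠ w → ∃ a b c : Fin 5, a ≠ b ∧ a ≠ c ∧ b ≠ c ∧ a ≠ p ∧ a ≠ w ∧ b ≠ p ∧ b ≠ w ∧
    c ≠ p ∧ c ≠ w := by decide

/-- two of three classes are in `LK` -/
theorem two_of {Pi LK : Fin 5 → Prop} {p w : Fin 5} (hpw : p ≠ w) (hPi : ∀ i, Pi i → i = p ∨ i = w)
    (eK : ∀ i j, i ≠ j → ¬ LK i → ¬ LK j → Pi i ∨ Pi j) :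
    ∃ a b c : Fin 5, a ≠ b ∧ a ≠ c ∧ b ≠ c ∧ a ≠ p ∧ a ≠ w ∧ b ≠ p ∧ b ≠ w ∧ c ≠ p ∧ c ≠ w ∧ LK a ∧ LK b := by
  obtain ⟨a, b, c, hab, hac, hbc, hap, haw, hbp, hbw, hcp, hcw⟩ := exists_rest p w hpw
  have ha : ¬ Pi a := fun h => (hPi a h).elim hap haw
  have hb : ¬ Pi b := fun h => (hPi b h).elim hbp hbw
  have hc : ¬ Pi c := fun h => (hPi c h).elim hcp hcw
  by_cases h1 : LK a
  · by_cases h2 : LK b
    · exact ⟨a, b, c, hab, hac, hbc, hap, haw, hbp, hbw, hcp, hcw, h1, h2⟩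
    · have h3 : LK c := by
        by_contra h3
        exact (eK b c hbc h2 h3).elim hb hc
      exact ⟨a, c, b, hac, hab, hbc.symm, hap, haw, hcp, hcw, hbp, hbw, h1, h3⟩
  · have h2 : LK b := by
      by_contra h2
      exact (eK a b hab h1 h2).elim ha hb
    have h3 : LK c := by
      by_contra h3
      exact (eK a c hac h1 h3).elim ha hc
    exact ⟨b, c, a, hbc, hab.symm, hac.symm, hbp, hbw, hcp, hcw, hap, haw, h2, h3⟩

/-- `Π ⊆ {p, w}` -/
theorem comb1 {Pi LK Lm Lp : Fin 5 → Prop} {p w : Fin 5} (hpw : p ≠ w) (hPi : ∀ i, Pi i → i = p ∨ i = w)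
    (hp : Lm p) (h0K : LK 0)
    (eL : ∀ i j, i ≠ j → ¬ Lm i → ¬ Lp i → ¬ Lm j → ¬ Lp j → Pi i ∨ Pi j)
    (eK : ∀ i j, i ≠ j → ¬ LK i → ¬ LK j → Pi i ∨ Pi j)
    (fm : ∀ i j k, i ≠ j → Lm i → Lm j → LK k → k = i ∨ k = j)
    (fp : ∀ i j k, i ≠ j → Lp i → Lp j → LK k → k = i ∨ k = j) :
    Pi w ∧ w ≠ 0 ∧ p ≠ 0 ∧ ∃ x, x ≠ 0 ∧ x ≠ p ∧ x ≠ w ∧ (∀ k, LK k → k = 0 ∨ k = x) ∧ LK x := by
  obtain ⟨a, b, c, hab, hac, hbc, hap, haw, hbp, hbw, hcp, hcw, hka, hkb⟩ := two_of hpw hPi eK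
  have ha : ¬ Pi a := fun h => (hPi a h).elim hap haw
  have hb : ¬ Pi b := fun h => (hPi b h).elim hbp hbw
  have hc : ¬ Pi c := fun h => (hPi c h).elim hcp hcw
  have h1 : ∀ i, Lm i → i = p := by
    intro i hi
    by_contra hip
    rcases fm i p a hip hi hp hka with h2 | h2
    · rcases fm i p b hip hi hp hkb with h3 | h3
      · exact hab (h2.trans h3.symm)
      · exact hbp h3
    · exact hap h2
  have hma : ¬ Lm a := fun h => hap (h1 a h)
  have hmb : ¬ Lm b := fun h => hbp (h1 b h)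
  have hmc : ¬ Lm c := fun h => hcp (h1 c h)
  have hpa : Lp a := by
    by_contra h5
    have h6 : Lp b := by
      by_contra h6
      exact (eL a b hab hma h5 hmb h6).elim ha hb
    have h7 : Lp c := by
      by_contra h7
      exact (eL a c hac hma h5 hmc h7).elim ha hc
    exact (fp b c a hbc h6 h7 hka).elim hab hac
  have hpb : Lp b := by
    by_contra h5
    have h7 : Lp c := by
      by_contra h7
      exact (eL b c hbc hmb h5 hmc h7).elim hb hc
    exact (fp a c b hac hpa h7 hkb).elim (fun h => hab h.symm) hbc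
  have h5 : ∀ k, LK k → k = a ∨ k = b := fun k hk => fp a b k hab hpa hpb hk
  have h6 : ¬ LK c := fun h => (h5 c h).elim (fun h => hac h.symm) (fun h => hbc h.symm)
  have h7 : ¬ LK w := fun h => (h5 w h).elim (fun h => haw h.symm) (fun h => hbw h.symm)
  have h8 : Pi w := (eK c w hcw h6 h7).resolve_left hc
  rcases h5 0 h0K with h9 | h9
  · subst h9
    exact ⟨h8, fun h => haw h.symm, fun h => hap h.symm, b, hab.symm, hbp, hbw, h5, hkb⟩
  · subst h9
    exact ⟨h8, fun h => hbw h.symm, fun h => hbp h.symm, a, hab, hap, haw, fun k hk => (h5 k hk).symm, hka⟩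

/-- `Π ⊆ {p, w}`, `p ∈ Lm`, `w ∈ LK` -/
theorem comb2 {Pi LK Lm Lp : Fin 5 → Prop} {p w : Fin 5} (hpw : p ≠ w) (hPi : ∀ i, Pi i → i = p ∨ i = w)
    (hp : Lm p) (hw : LK w)
    (eL : ∀ i j, i ≠ j → ¬ Lm i → ¬ Lp i → ¬ Lm j → ¬ Lp j → Pi i ∨ Pi j)
    (eK : ∀ i j, i ≠ j → ¬ LK i → ¬ LK j → Pi i ∨ Pi j)
    (fm : ∀ i j k, i ≠ j → Lm i → Lm j → LK k → k = i ∨ k = j)
    (fp : ∀ i j k, i ≠ j → Lp i → Lp j → LK k → k = i ∨ k = j) : False := by
  obtain ⟨a, b, c, hab, hac, hbc, hap, haw, hbp, hbw, hcp, hcw, hka, hkb⟩ := two_of hpw hPi eK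
  have ha : ¬ Pi a := fun h => (hPi a h).elim hap haw
  have hb : ¬ Pi b := fun h => (hPi b h).elim hbp hbw
  have hc : ¬ Pi c := fun h => (hPi c h).elim hcp hcw
  -- no pair in a torus
  have h1 : ∀ i, Lm i → i = p := by
    intro i hi
    by_contra hip
    rcases fm i p a hip hi hp hka with h2 | h2
    · rcases fm i p b hip hi hp hkb with h3 | h3
      · exact hab (h2.trans h3.symm)
      · exact hbp h3
    · exact hap h2
  have h2 : ∀ i j, i ≠ j → Lp i → ¬ Lp j := by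
    intro i j hij hi hj
    rcases fp i j a hij hi hj hka with h3 | h3 <;> rcases fp i j b hij hi hj hkb with h4 | h4 <;>
      rcases fp i j w hij hi hj hw with h5 | h5
    · exact hab (h3.trans h4.symm)
    · exact hab (h3.trans h4.symm)
    · exact haw (h3.trans h5.symm)
    · exact hbw (h4.trans h5.symm)
    · exact hbw (h4.trans h5.symm)
    · exact haw (h3.trans h5.symm)
    · exact hab (h3.trans h4.symm)
    · exact hab (h3.trans h4.symm)
  have hma : ¬ Lm a := fun h => hap (h1 a h)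
  have hmb : ¬ Lm b := fun h => hbp (h1 b h)
  have hmc : ¬ Lm c := fun h => hcp (h1 c h)
  by_cases h3 : Lp a
  · have h4 := h2 a b hab h3
    have h5 := h2 a c hac h3
    exact (eL b c hbc hmb h4 hmc h5).elim hb hc
  · by_cases h4 : Lp b
    · have h5 := h2 b c hbc h4
      exact (eL a c hac hma h3 hmc h5).elim ha hc
    · exact (eL a b hab hma h3 hmb h4).elim ha hb

end Cfsg.Agent.H291.S3530
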